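import Cfsg.Agent.TwoRankTwo23.NoSwap
import Cfsg.Agent.TwoRankTwo23.Transitive
import Cfsg.Agent.TwoRankTwo23.Four
import Cfsg.Agent.TwoGroup.NormalRankOne
import Cfsg.Agent.TwoGroup.UniqueInvolution
import Cfsg.Agent.FusionTwo.SylowType
import Cfsg.Agent.Eq.Def_TwoFusion
import Cfsg.Agent.Eq.Def_CaseTheorems
import Cfsg.Agent.S0112
import Mathlib.GroupTheory.SpecificGroups.Dihedral

/-!
Sylow `2`-subgroups of groups of `2`-rank two without isolated involutions (Alperin).

Either every normal abelian subgroup of `S` is cyclic, and `S` has maximal class, or `S` has a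
normal four-group `U`.  If `U` is central in `S`, the normaliser of `S` permutes the involutions
transitively.  Otherwise let `z` be its central involution and `T` the centraliser of `U` in `S`.
If `z` is fused to another element of `U`, two Sylow subgroups containing `T` give an element of
`N(T)` permuting the involutions of `T` transitively, so `T` is homocyclic (and `S` is dihedral or
wreathed) or of unitary type (impossible).  Otherwise a conjugate `x ≠ z` of `z` lies in `S` outside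
`T`, and its centraliser in `S` is a four-group, so `S` has maximal class.
-/

set_option autoImplicit false

namespace CfsgLib.TwoRankTwo23

open CfsgLib.OmegaFour (eq_of_card_four mem_normalizer_conj commute_of_two restrictAut
  restrictAut_coe)

/-- The conclusion of the classification, with the unitary type described intrinsically. -/
def SylowShape {G : Type*} [Group G] (S : Subgroup G) : Prop :=
  (∃ m : ℕ, 2 ≤ m ∧ Nonempty (S ≃* DihedralGroup m)) ∨ Cfsg.IsQuasiDihedral S ∨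
    Cfsg.IsWreathed S ∨
      (∃ n : ℕ, 2 ≤ n ∧ Nonempty (S ≃* Multiplicative (ZMod (2 ^ n) × ZMod (2 ^ n)))) ∨
        ∃ (W : Subgroup S) (ψ : MulAut S), CfsgLib.TwoFpf.IsUnitaryType ψ W

variable {G : Type*} [Group G] [Finite G]

/-- A Sylow subgroup of maximal class containing a four-group is dihedral or semidihedral. -/
theorem shape_of_maxClass {S U : Subgroup G} (hUS : U ≤ S) (hU4 : Nat.card U = 4)
    (hU2 : ∀ a ∈ U, a * a = 1) (h : CfsgLib.TwoGroup.IsMaxClassType S) : SylowShape S := by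
  rcases h.dihedral_or_quaternion_or_quasiDihedral with ⟨k, hk⟩ | ⟨k, ⟨e⟩⟩ | h
  · refine Or.inl ⟨2 ^ (k + 2), ?_, hk⟩
    calc 2 = 2 ^ 1 := rfl
      _ ≤ 2 ^ (k + 2) := Nat.pow_le_pow_right (by norm_num) (by omega)
  · exfalso
    classical
    haveI : Fintype U := Fintype.ofFinite U
    haveI : NeZero (2 ^ (k + 1)) := ⟨by positivity⟩
    let ι : U → QuaternionGroup (2 ^ (k + 1)) := fun a => e (Subgroup.inclusion hUS a)
    have hι : Function.Injective ι := e.injective.comp (Subgroup.inclusion_injective hUS)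
    have hsub : Finset.univ.image ι ⊆
        {1, QuaternionGroup.a ((2 ^ (k + 1) : ℕ) : ZMod (2 * 2 ^ (k + 1)))} := by
      intro g hg
      obtain ⟨a, -, rfl⟩ := Finset.mem_image.1 hg
      have := quaternion_sq_eq_one (g := ι a) (by
        simp only [ι]
        rw [← map_mul, ← map_mul, show a * a = 1 from Subtype.ext (hU2 a a.2), map_one, map_one])
      simpa using this
    have := (Finset.card_le_card hsub).trans Finset.card_le_two
    rw [Finset.card_image_of_injective _ hι, Finset.card_univ, ← Nat.card_eq_fintype_card, hU4]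
      at this
    omega
  · exact Or.inr (Or.inl h)

variable (h2 : Cfsg.PRankLE 2 2 G) (hiso : ∀ z : G, ¬ Cfsg.IsIsolatedInvolution z) (S : Sylow 2 G)

include h2 in
/-- Maximal class, or a normal four-group. -/
theorem maxClass_or_normal_four (h1 : ¬ Cfsg.PRankLE 2 1 G) :
    (∃ U : Subgroup G, U ≤ S ∧ Nat.card U = 4 ∧ ∀ a ∈ U, a * a = 1) ∧
      (CfsgLib.TwoGroup.IsMaxClassType (S : Subgroup G) ∨
        ∃ U : Subgroup G, U ≤ S ∧ Nat.card U = 4 ∧ (∀ a ∈ U, a * a = 1) ∧
          (S : Subgroup G) ≤ Subgroup.normalizer (U : Set G)) := by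
  haveI : Fact (Nat.Prime 2) := ⟨Nat.prime_two⟩
  simp only [Cfsg.PRankLE] at h1
  push Not at h1
  obtain ⟨A₀, hA₀c, hA₀2, hA₀⟩ := h1
  have hA₀p : IsPGroup 2 A₀ := fun a => ⟨1, Subtype.ext (by simpa using hA₀2 a a.2)⟩
  have hA₀4 : Nat.card A₀ = 4 := by
    obtain ⟨k, hk⟩ := IsPGroup.iff_card.1 hA₀p
    have := h2 A₀ hA₀c hA₀2
    rw [hk] at this hA₀ ⊢
    have h3 : k ≤ 2 := (Nat.pow_le_pow_iff_right (by norm_num)).1 this
    interval_cases k <;> simp at hA₀ ⊢
  obtain ⟨R, hR⟩ := hA₀p.exists_le_sylow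
  obtain ⟨c, hc⟩ := MulAction.exists_smul_eq G R S
  set U₀ := A₀.map (MulAut.conj c).toMonoidHom with hU₀
  have hU₀S : U₀ ≤ S := by
    rintro _ ⟨a, ha, rfl⟩
    rw [← hc]
    exact Subgroup.smul_mem_pointwise_smul _ (MulAut.conj c) (R : Subgroup G) (hR ha)
  have hU₀4 : Nat.card U₀ = 4 := by
    rw [hU₀, Subgroup.card_map_of_injective (MulAut.conj c).injective, hA₀4]
  have hU₀2 : ∀ a ∈ U₀, a * a = 1 := by
    rintro _ ⟨a, ha, rfl⟩
    rw [← map_mul, ← pow_two, hA₀2 a ha, map_one]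
  refine ⟨⟨U₀, hU₀S, hU₀4, hU₀2⟩, ?_⟩
  have hSp : IsPGroup 2 (S : Subgroup G) := S.isPGroup'
  by_cases hall : ∀ A : Subgroup (S : Subgroup G), A.Normal → IsMulCommutative A → IsCyclic A
  · refine Or.inl (CfsgLib.TwoGroup.isMaxClassType_of_normal_rank_one hSp ?_ hall)
    intro hcyc
    have := hcyc
    haveI : IsCyclic (U₀.subgroupOf (S : Subgroup G)) := Subgroup.isCyclic _
    have hcyc₀ : IsCyclic U₀ :=
      isCyclic_of_surjective _ (Subgroup.subgroupOfEquivOfLe hU₀S).surjective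
    obtain ⟨g, hg⟩ := hcyc₀.exists_generator
    have h4 : orderOf g = 4 := by rw [orderOf_eq_card_of_forall_mem_zpowers hg, hU₀4]
    have h2' : g ^ 2 = 1 := Subtype.ext (by rw [pow_two]; exact hU₀2 g g.2)
    have := Nat.le_of_dvd two_pos (orderOf_dvd_of_pow_eq_one h2')
    omega
  · push Not at hall
    obtain ⟨A, hAn, hAc, hAnc⟩ := hall
    refine Or.inr ?_
    have hcomm : ∀ a ∈ A, ∀ b ∈ A, Commute a b := fun a ha b hb =>
      congrArg Subtype.val (hAc.is_comm.comm (⟨a, ha⟩ : A) ⟨b, hb⟩)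
    let O : Subgroup (S : Subgroup G) :=
      { carrier := {a | a ∈ A ∧ a * a = 1}
        one_mem' := ⟨one_mem _, one_mul 1⟩
        inv_mem' := fun {a} ha => ⟨inv_mem ha.1, by rw [← mul_inv_rev, ha.2, inv_one]⟩
        mul_mem' := fun {a b} ha hb => ⟨mul_mem ha.1 hb.1, by
          rw [(hcomm b hb.1 a ha.1).mul_mul_mul_comm, ha.2, hb.2, one_mul]⟩ }
    set U := O.map (S : Subgroup G).subtype with hU
    have hU2 : ∀ a ∈ U, a * a = 1 := by
      rintro _ ⟨a, ha, rfl⟩
      rw [← map_mul, ha.2, map_one]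
    have hUc : IsMulCommutative U := ⟨⟨fun a b => Subtype.ext (by
      obtain ⟨a', ha', e1⟩ := a.2
      obtain ⟨b', hb', e2⟩ := b.2
      rw [Subgroup.coe_mul, Subgroup.coe_mul, ← e1, ← e2, ← map_mul, ← map_mul,
        (hcomm a' ha'.1 b' hb'.1).eq])⟩⟩
    refine ⟨U, Subgroup.map_subtype_le _, ?_, hU2, ?_⟩
    · have hle := h2 U hUc fun a ha => by rw [pow_two]; exact hU2 a ha
      have hUO : Nat.card U = Nat.card O :=
        Subgroup.card_map_of_injective (S : Subgroup G).subtype_injective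
      rw [hUO] at hle ⊢
      obtain ⟨k, hk⟩ := IsPGroup.iff_card.1 (hSp.to_subgroup O)
      rw [hk] at hle ⊢
      have h3 : k ≤ 2 := (Nat.pow_le_pow_iff_right (by norm_num)).1 hle
      rcases (show k ≤ 1 ∨ k = 2 by omega) with hk1 | rfl
      · exfalso
        apply hAnc
        refine CfsgLib.TwoGroup.isCyclic_of_comm_atMostOneInvolution (hSp.to_subgroup A)
          (fun a b => Subtype.ext (hcomm a a.2 b b.2).eq) ?_
        intro p q hp hq
        by_contra hpq
        rw [← Subgroup.orderOf_coe] at hp hq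
        have hmem : ∀ r : (S : Subgroup G), r ∈ A → orderOf r = 2 → r ∈ O := fun r hr hr2 =>
          ⟨hr, by
            have := pow_orderOf_eq_one r
            rwa [hr2, pow_two] at this⟩
        have hne : ∀ r : (S : Subgroup G), orderOf r = 2 → r ≠ 1 := fun r hr e => by
          rw [e, orderOf_one] at hr; omega
        have hp1 : p ≠ 1 := fun e => hne _ hp (congrArg Subtype.val e)
        have hq1 : q ≠ 1 := fun e => hne _ hq (congrArg Subtype.val e)
        have hinj : Function.Injective (![1, ⟨p, hmem p p.2 hp⟩, ⟨q, hmem q q.2 hq⟩] : Fin 3 → O) := by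
          intro i j hij
          have hv := congrArg Subtype.val hij
          fin_cases i <;> fin_cases j <;> first
            | rfl
            | (simp at hv
               first
                | exact absurd hv (hne _ hp) | exact absurd hv.symm (hne _ hp)
                | exact absurd hv (hne _ hq) | exact absurd hv.symm (hne _ hq)
                | exact absurd hv hpq | exact absurd hv.symm hpq
                | exact absurd hv hp1 | exact absurd hv.symm hp1
                | exact absurd hv hq1 | exact absurd hv.symm hq1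
                | exact absurd (Subtype.ext hv) hpq | exact absurd (Subtype.ext hv.symm) hpq)
        have := Nat.card_le_card_of_injective _ hinj
        rw [Nat.card_fin, hk] at this
        have := Nat.pow_le_pow_right two_pos hk1
        omega
      · norm_num
    · intro s hs
      refine CfsgLib.FusionTwo.mem_normalizer_of_conj_mem ?_
      rintro _ ⟨a, ha, rfl⟩
      refine ⟨⟨s, hs⟩ * a * ⟨s, hs⟩⁻¹, ⟨hAn.conj_mem a ha.1 _, ?_⟩, by simp⟩
      rw [show ∀ t : (S : Subgroup G), t * a * t⁻¹ * (t * a * t⁻¹) = t * (a * a) * t⁻¹ from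
        fun t => by group, ha.2, mul_one, mul_inv_cancel]

include h2 hiso in
/-- The four-group is central in `S`. -/
theorem shape_central {U : Subgroup G} (hUS : U ≤ S) (hU4 : Nat.card U = 4)
    (hU2 : ∀ a ∈ U, a * a = 1) (hc : ∀ s ∈ (S : Subgroup G), ∀ a ∈ U, Commute s a) :
    SylowShape (S : Subgroup G) := by
  haveI : Fact (Nat.Prime 2) := ⟨Nat.prime_two⟩
  have hin : ∀ s ∈ (S : Subgroup G), s * s = 1 → s ∈ U := fun s hs h =>
    mem_of_commute h2 hU4 hU2 h (hc s hs)
  have hNU : Subgroup.normalizer ((S : Subgroup G) : Set G) ≤ Subgroup.normalizer (U : Set G) := by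
    intro n hn
    refine CfsgLib.FusionTwo.mem_normalizer_of_conj_mem fun a ha => ?_
    refine hin _ (mem_normalizer_conj hn (hUS ha)) ?_
    rw [show n * a * n⁻¹ * (n * a * n⁻¹) = n * (a * a) * n⁻¹ by group, hU2 a ha]
    group
  obtain ⟨k, hk, hkall⟩ := exists_moving_all hU4 hU2 _ hNU (by
    intro a ha ha1
    have ho : orderOf a = 2 := orderOf_eq_prime (by rw [pow_two]; exact hU2 a ha) ha1
    obtain ⟨g, hgc, hga⟩ := not_forall.1 (fun hall => hiso a ⟨ho, hall⟩) |>.imp
      fun g hg => Classical.not_imp.1 hg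
    have hS : (S : Subgroup G) ≤ Subgroup.centralizer {a} := fun s hs =>
      Subgroup.mem_centralizer_singleton_iff.2 ((hc s hs a ha).eq)
    have hg2 : (g * a * g⁻¹) * (g * a * g⁻¹) = 1 := by
      rw [show g * a * g⁻¹ * (g * a * g⁻¹) = g * (a * a) * g⁻¹ by group, hU2 a ha]; group
    obtain ⟨c, hca, hc'⟩ := exists_conj_mem_sylow hS (Q := Subgroup.zpowers (g * a * g⁻¹))
      (IsPGroup.of_card (n := 1) (by
        rw [Nat.card_zpowers, ← MulAut.conj_apply,
          ← MulEquiv.coe_toMonoidHom, orderOf_injective _ (MulAut.conj g).injective, ho, pow_one]))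
      (by rw [Subgroup.zpowers_le]; exact Subgroup.mem_centralizer_singleton_iff.2 hgc.eq.symm)
    have hy := hc' _ (Subgroup.mem_zpowers _)
    set y := c * (g * a * g⁻¹) * c⁻¹ with hydef
    have hya : y ≠ a := by
      intro e
      apply hga
      have hfix : c * a * c⁻¹ = a :=
        mul_inv_eq_of_eq_mul (Subgroup.mem_centralizer_singleton_iff.1 hca)
      exact mul_left_cancel (mul_right_cancel (e.trans hfix.symm))
    have hyU : y ∈ U := hin _ hy (by
      rw [hydef, show c * (g * a * g⁻¹) * c⁻¹ * (c * (g * a * g⁻¹) * c⁻¹) =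
        c * ((g * a * g⁻¹) * (g * a * g⁻¹)) * c⁻¹ by group, hg2]; group)
    have hcen : ∀ b ∈ U, b ∈ Subgroup.centralizer ((S : Subgroup G) : Set G) := fun b hb =>
      Subgroup.mem_centralizer_iff.2 fun s hs => (hc s hs b hb).eq
    obtain ⟨n, hn, e⟩ := Sylow.conj_eq_normalizer_conj_of_mem_centralizer S a (c * g)⁻¹
      (hcen a ha) (by
        rw [inv_inv, show c * g * a * (c * g)⁻¹ = y by rw [hydef]; group]
        exact hcen y hyU)
    refine ⟨n⁻¹, inv_mem hn, ?_⟩
    rw [inv_inv, ← e, inv_inv, show c * g * a * (c * g)⁻¹ = y by rw [hydef]; group]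
    exact hya)
  set W := U.subgroupOf (S : Subgroup G) with hW
  let φ := restrictAut (S : Subgroup G) (MulAut.conj k) fun a ha => by
    simpa using mem_normalizer_conj hk ha
  obtain ⟨ψ, h | h⟩ := exists_fpf_classify (W := W) S.isPGroup'
    (fun a ha => Subgroup.mem_center_iff.2 fun s => Subtype.ext (hc s s.2 a ha).eq)
    (by rw [hW, Nat.card_congr (Subgroup.subgroupOfEquivOfLe hUS).toEquiv, hU4])
    (fun a ha => Subtype.ext (hU2 a ha)) (fun a ha => hin a a.2 (congrArg Subtype.val ha)) φ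
    (fun a ha e => Subtype.ext (hkall a ha (by simpa [φ] using congrArg Subtype.val e)))
  · obtain ⟨n, hn, ⟨e⟩⟩ := h.exists_mulEquiv
    rcases (show n = 1 ∨ 2 ≤ n by omega) with rfl | hn2
    · obtain ⟨e'⟩ : Nonempty (Multiplicative (ZMod 2 × ZMod 2) ≃* DihedralGroup 2) :=
        IsKleinFour.nonempty_mulEquiv
      exact Or.inl ⟨2, le_rfl, ⟨e.trans e'⟩⟩
    · exact Or.inr (Or.inr (Or.inr (Or.inl ⟨n, hn2, ⟨e⟩⟩)))
  · exact Or.inr (Or.inr (Or.inr (Or.inr ⟨W, ψ, h⟩)))

include h2 in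
/-- `z` is fused to another involution of `U`. -/
theorem shape_fused {U : Subgroup G} (hUS : U ≤ S) (hU4 : Nat.card U = 4)
    (hU2 : ∀ a ∈ U, a * a = 1) (hUn : (S : Subgroup G) ≤ Subgroup.normalizer (U : Set G))
    {y z g : G} (hy : y ∈ S) (hyU : ¬ ∀ a ∈ U, Commute y a) (hz : z ∈ U) (hz1 : z ≠ 1)
    (hzS : ∀ s ∈ (S : Subgroup G), Commute s z) (hv : g * z * g⁻¹ ∈ U) (hvz : g * z * g⁻¹ ≠ z)
    (hT : ∀ s ∈ (S : Subgroup G), ∀ s' ∈ (S : Subgroup G), (¬ ∀ a ∈ U, Commute s a) →
      (¬ ∀ a ∈ U, Commute s' a) → ∀ a ∈ U, Commute (s * s') a) :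
    SylowShape (S : Subgroup G) := by
  classical
  haveI : Fact (Nat.Prime 2) := ⟨Nat.prime_two⟩
  set v := g * z * g⁻¹ with hvdef
  have hv1 : v ≠ 1 := fun e => hz1 (conj_eq_one_iff.mp (hvdef ▸ e))
  set T := (S : Subgroup G) ⊓ Subgroup.centralizer (U : Set G) with hTdef
  have memT : ∀ t, t ∈ T ↔ t ∈ (S : Subgroup G) ∧ ∀ a ∈ U, Commute t a := by
    intro t
    rw [hTdef, Subgroup.mem_inf, Subgroup.mem_centralizer_iff]
    exact and_congr_right fun _ => forall₂_congr fun a _ => ⟨fun e => e.symm, fun e => e.eq.symm⟩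
  have hTS : T ≤ S := inf_le_left
  have hUT : U ≤ T := fun a ha => (memT a).2 ⟨hUS ha, fun b hb => by
    have hi : ∀ c ∈ U, c⁻¹ = c := fun c hc => inv_eq_of_mul_eq_one_right (hU2 c hc)
    show a * b = b * a
    rw [← hi (a * b) (mul_mem ha hb), mul_inv_rev, hi b hb, hi a ha]⟩
  have hTp : IsPGroup 2 T := S.isPGroup'.to_le hTS
  have hinT : ∀ t ∈ T, t * t = 1 → t ∈ U := fun t ht h =>
    mem_of_commute h2 hU4 hU2 h ((memT t).1 ht).2
  have hyT : y ∉ T := fun h => hyU ((memT y).1 h).2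
  have hidx : (T.subgroupOf (S : Subgroup G)).index = 2 := by
    rw [Subgroup.index_eq_two_iff]
    refine ⟨⟨y, hy⟩, fun b => ?_⟩
    simp only [Subgroup.mem_subgroupOf, Subgroup.coe_mul]
    by_cases hb : (b : G) ∈ T
    · exact Or.inr ⟨hb, fun e => hyT ((Subgroup.mul_mem_cancel_left T hb).1 e)⟩
    · exact Or.inl ⟨(memT _).2 ⟨mul_mem b.2 hy, hT _ b.2 y hy (fun h => hb ((memT _).2 ⟨b.2, h⟩))
        hyU⟩, hb⟩
  have hcardS : Nat.card (S : Subgroup G) = 2 * Nat.card T := by
    rw [← Subgroup.card_mul_index (T.subgroupOf (S : Subgroup G)), hidx,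
      Nat.card_congr (Subgroup.subgroupOfEquivOfLe hTS).toEquiv, mul_comm]
  have hyNT : ∀ t ∈ T, y * t * y⁻¹ ∈ T := fun t ht =>
    ((Subgroup.normal_of_index_eq_two hidx).conj_mem ⟨t, hTS ht⟩ ht ⟨y, hy⟩ : _)
  -- the Sylow subgroup through `T` centralising `v`
  have hgS : ∀ s, s ∈ ((g • S : Sylow 2 G) : Subgroup G) ↔ g⁻¹ * s * g ∈ (S : Subgroup G) := by
    intro s
    rw [Sylow.coe_subgroup_smul, Subgroup.mem_pointwise_smul_iff_inv_smul_mem]
    simp [MulAut.smul_def]
  obtain ⟨c, hcv, hcT⟩ := exists_conj_mem_sylow (S := g • S) (K := Subgroup.centralizer {v})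
    (fun s hs => Subgroup.mem_centralizer_singleton_iff.2 (by
      have h := (hzS _ ((hgS s).1 hs)).eq
      calc s * v = g * (g⁻¹ * s * g * z) * g⁻¹ := by rw [hvdef]; group
        _ = g * (z * (g⁻¹ * s * g)) * g⁻¹ := by rw [h]
        _ = v * s := by rw [hvdef]; group))
    hTp (fun t ht => Subgroup.mem_centralizer_singleton_iff.2 (((memT t).1 ht).2 v hv).eq)
  set g₁ := c⁻¹ * g with hg₁
  have hT₁ : ∀ t ∈ T, g₁⁻¹ * t * g₁ ∈ (S : Subgroup G) := fun t ht => by
    have := (hgS _).1 (hcT t ht)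
    rw [hg₁]
    convert this using 1
    group
  have hg₁z : g₁ * z * g₁⁻¹ = v := by
    have h := Subgroup.mem_centralizer_singleton_iff.1 hcv
    calc g₁ * z * g₁⁻¹ = c⁻¹ * (v * c) := by rw [hg₁, hvdef]; group
      _ = v := by rw [← h, inv_mul_cancel_left]
  set T₁ := (T.map (MulAut.conj g₁⁻¹).toMonoidHom).subgroupOf (S : Subgroup G) with hT₁def
  have hT₁le : T.map (MulAut.conj g₁⁻¹).toMonoidHom ≤ (S : Subgroup G) := by
    rintro _ ⟨t, ht, rfl⟩
    simpa using hT₁ t ht
  have hT₁idx : T₁.index = 2 := by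
    have e := Subgroup.card_mul_index T₁
    rw [hT₁def, Nat.card_congr (Subgroup.subgroupOfEquivOfLe hT₁le).toEquiv,
      Subgroup.card_map_of_injective (MulAut.conj g₁⁻¹).injective, hcardS] at e
    exact Nat.eq_of_mul_eq_mul_left Nat.card_pos (e.trans (mul_comm _ _))
  obtain ⟨r', hr', hr'U⟩ : ∃ r' ∈ (S : Subgroup G),
      ¬ ∀ a ∈ U, Commute (g₁ * r' * g₁⁻¹) a := by
    by_contra hcon
    push Not at hcon
    refine hyU fun a ha => ?_
    set U' := U.map (MulAut.conj g₁⁻¹).toMonoidHom with hU'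
    have hU'4 : Nat.card U' = 4 := by
      rw [hU', Subgroup.card_map_of_injective (MulAut.conj g₁⁻¹).injective, hU4]
    have hU'2 : ∀ b ∈ U', b * b = 1 := by
      rintro _ ⟨b, hb, rfl⟩
      rw [← map_mul, hU2 b hb, map_one]
    have hSU' : ∀ s ∈ (S : Subgroup G), ∀ b ∈ U', Commute s b := by
      rintro s hs _ ⟨b, hb, rfl⟩
      simpa [mul_assoc] using (hcon s hs b hb).map (MulAut.conj g₁⁻¹).toMonoidHom
    exact hSU' y hy a (mem_of_commute h2 hU'4 hU'2 (hU2 a ha) (hSU' a (hUS ha)))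
  set r := g₁ * r' * g₁⁻¹ with hr
  have hrNT : ∀ t ∈ T, r * t * r⁻¹ ∈ T := by
    intro t ht
    have := (Subgroup.normal_of_index_eq_two hT₁idx).conj_mem ⟨g₁⁻¹ * t * g₁, hT₁ t ht⟩
      (by
        rw [hT₁def, Subgroup.mem_subgroupOf]
        exact ⟨t, ht, by simp⟩) ⟨r', hr'⟩
    rw [hT₁def, Subgroup.mem_subgroupOf] at this
    obtain ⟨t', ht', e⟩ := this
    have e' : g₁⁻¹ * t' * g₁ = r' * (g₁⁻¹ * t * g₁) * r'⁻¹ := by simpa using e
    have : r * t * r⁻¹ = t' := by
      calc r * t * r⁻¹ = g₁ * (r' * (g₁⁻¹ * t * g₁) * r'⁻¹) * g₁⁻¹ := by rw [hr]; group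
        _ = t' := by rw [← e']; group
    rw [this]; exact ht'
  have hrNU : r ∈ Subgroup.normalizer (U : Set G) := by
    refine CfsgLib.FusionTwo.mem_normalizer_of_conj_mem fun a ha => ?_
    refine hinT _ (hrNT a (hUT ha)) ?_
    rw [show r * a * r⁻¹ * (r * a * r⁻¹) = r * (a * a) * r⁻¹ by group, hU2 a ha]
    group
  have hrv : r * v * r⁻¹ = v := by
    rw [hr, ← hg₁z]
    calc g₁ * r' * g₁⁻¹ * (g₁ * z * g₁⁻¹) * (g₁ * r' * g₁⁻¹)⁻¹
        = g₁ * (r' * z * r'⁻¹) * g₁⁻¹ := by group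
      _ = _ := by rw [mul_inv_eq_of_eq_mul (hzS r' hr').eq]
  have hrz : r * z * r⁻¹ = z * v := by
    refine conj_eq_mul hU4 hU2 hrNU hz hv hv1 (fun e => ?_) hrv
    exact hr'U (commute_of_two hU4 hU2 hz hv hz1 hv1 (Ne.symm hvz)
      (mul_inv_eq_iff_eq_mul.1 e) (mul_inv_eq_iff_eq_mul.1 hrv))
  have hyz : y * z * y⁻¹ = z := mul_inv_eq_of_eq_mul (hzS y hy).eq
  have hyv : y * v * y⁻¹ = v * z := by
    refine conj_eq_mul hU4 hU2 (hUn hy) hv hz hz1 (fun e => ?_) hyz
    exact hyU (commute_of_two hU4 hU2 hz hv hz1 hv1 (Ne.symm hvz) (hzS y hy)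
      (mul_inv_eq_iff_eq_mul.1 e))
  set k := y * r with hk
  have hkNT : ∀ t ∈ T, k * t * k⁻¹ ∈ T := fun t ht => by
    rw [hk, show y * r * t * (y * r)⁻¹ = y * (r * t * r⁻¹) * y⁻¹ by group]
    exact hyNT _ (hrNT t ht)
  have hzv : z * v = v * z := (((memT z).1 (hUT hz)).2 v hv).eq
  have hkz : k * z * k⁻¹ = v := by
    rw [hk, show y * r * z * (y * r)⁻¹ = y * (r * z * r⁻¹) * y⁻¹ by group, hrz, ← conj_mul, hyz,
      hyv, ← mul_assoc, hzv, mul_assoc, hU2 z hz, mul_one]
  have hkv : k * v * k⁻¹ = v * z := by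
    rw [hk, show y * r * v * (y * r)⁻¹ = y * (r * v * r⁻¹) * y⁻¹ by group, hrv, hyv]
  have hkfix : ∀ a ∈ U, k * a * k⁻¹ = a → a = 1 := by
    intro a ha e
    rcases eq_of_card_four hU4 hU2 hz hv hz1 hv1 (Ne.symm hvz) ha with h | h | h | h
    · exact h
    · rw [h, hkz] at e; exact absurd e hvz
    · rw [h, hkv] at e; exact absurd (mul_left_cancel (e.trans (mul_one v).symm)) hz1
    · rw [h, ← conj_mul, hkz, hkv, ← mul_assoc, hU2 v hv, one_mul] at e
      exact absurd (mul_left_cancel ((mul_one z).trans e)).symm hv1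
  set W := U.subgroupOf T with hW
  obtain ⟨ψ, h | h⟩ := exists_fpf_classify (W := W) hTp
    (fun a ha => Subgroup.mem_center_iff.2 fun t => Subtype.ext (((memT t).1 t.2).2 a ha).eq)
    (by rw [hW, Nat.card_congr (Subgroup.subgroupOfEquivOfLe hUT).toEquiv, hU4])
    (fun a ha => Subtype.ext (hU2 a ha)) (fun a ha => hinT a a.2 (congrArg Subtype.val ha))
    (restrictAut T (MulAut.conj k) fun a ha => by simpa using hkNT a ha)
    (fun a ha e => Subtype.ext (hkfix a ha (by simpa using congrArg Subtype.val e)))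
  · obtain ⟨n, hn, ⟨e⟩⟩ := h.exists_mulEquiv
    haveI : NeZero (2 ^ n) := ⟨by positivity⟩
    have hcardT : Nat.card T = 2 ^ (2 * n) := by
      rw [Nat.card_congr e.toEquiv, Nat.card_congr Multiplicative.toAdd, Nat.card_prod,
        Nat.card_zmod, ← pow_add, two_mul]
    rcases (show n = 1 ∨ 2 ≤ n by omega) with rfl | hn2
    · refine shape_of_maxClass hUS hU4 hU2 (CfsgLib.TwoGroup.isMaxClassType_of_card_eight ?_ ?_)
      · rw [hcardS, hcardT]; norm_num
      · exact fun hcm => hyU fun a ha =>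
          congrArg Subtype.val (hcm.is_comm.comm (⟨y, hy⟩ : (S : Subgroup G)) ⟨a, hUS ha⟩)
    · refine Or.inr (Or.inr (Or.inl ?_))
      have hTc : ∀ a ∈ T, ∀ b ∈ T, Commute a b := fun a ha b hb =>
        congrArg Subtype.val (h.commute ⟨a, ha⟩ ⟨b, hb⟩)
      have hexp : ∀ a ∈ T, a ^ (2 ^ n) = 1 := fun a ha => by
        have hM : ∀ p : Multiplicative (ZMod (2 ^ n) × ZMod (2 ^ n)), p ^ (2 ^ n) = 1 := fun p => by
          apply Multiplicative.toAdd.injective
          rw [toAdd_pow, toAdd_one]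
          have h0 : ((2 : ZMod (2 ^ n))) ^ n = 0 := by exact_mod_cast ZMod.natCast_self (2 ^ n)
          ext <;> simp [h0]
        exact congrArg Subtype.val (e.injective (by rw [map_pow, hM, map_one]) :
          (⟨a, ha⟩ : T) ^ (2 ^ n) = 1)
      have hhalf : ∀ p : ZMod (2 ^ n), p + p = 0 →
          ∃ p', p = ((2 ^ (n - 1) : ℕ) : ZMod (2 ^ n)) * p' := by
        intro p hp
        obtain ⟨l, rfl⟩ : ∃ l : ℕ, (l : ZMod (2 ^ n)) = p := ⟨p.val, ZMod.natCast_zmod_val p⟩
        rw [← Nat.cast_add, ZMod.natCast_eq_zero_iff, ← two_mul] at hp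
        obtain ⟨l', rfl⟩ : 2 ^ (n - 1) ∣ l := by
          apply Nat.dvd_of_mul_dvd_mul_left two_pos
          rwa [← pow_succ', Nat.sub_add_cancel hn]
        exact ⟨(l' : ZMod (2 ^ n)), by push_cast; ring⟩
      obtain ⟨u, hu, hu1, huz⟩ : ∃ u ∈ U, u ≠ 1 ∧ u ≠ z := ⟨v, hv, hv1, hvz⟩
      obtain ⟨f, hfT, hf⟩ : ∃ f ∈ T, f ^ (2 ^ (n - 1)) = u := by
        set p := (e ⟨u, hUT hu⟩).toAdd with hp
        have hpp : p + p = 0 := by
          rw [hp, ← toAdd_mul, ← map_mul,
            show (⟨u, hUT hu⟩ : T) * ⟨u, hUT hu⟩ = 1 from Subtype.ext (hU2 u hu), map_one, toAdd_one]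
        obtain ⟨p₁, hp₁⟩ := hhalf p.1 (congrArg Prod.fst hpp)
        obtain ⟨p₂, hp₂⟩ := hhalf p.2 (congrArg Prod.snd hpp)
        refine ⟨(e.symm (Multiplicative.ofAdd (p₁, p₂)) : T), SetLike.coe_mem _, ?_⟩
        rw [← Subgroup.coe_pow, ← map_pow, ← ofAdd_nsmul]
        rw [show (2 ^ (n - 1)) • (p₁, p₂) = p by
          rw [Prod.smul_mk, nsmul_eq_mul, nsmul_eq_mul, ← hp₁, ← hp₂]]
        simp [hp]
      set f' := y * f * y⁻¹ with hf'
      have hf'T : f' ∈ T := hyNT f hfT
      have hyu : y * u * y⁻¹ = u * z := by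
        refine conj_eq_mul hU4 hU2 (hUn hy) hu hz hz1 (fun e => ?_) hyz
        exact hyU (commute_of_two hU4 hU2 hz hu hz1 hu1 (Ne.symm huz) (hzS y hy)
          (mul_inv_eq_iff_eq_mul.1 e))
      have hf'u : f' ^ (2 ^ (n - 1)) = u * z := by rw [hf', conj_pow, hf, hyu]
      have hof : orderOf f = 2 ^ n := by
        have := orderOf_eq_prime_pow (p := 2) (n := n - 1) (by rw [hf]; exact hu1)
          (by rw [Nat.sub_add_cancel hn]; exact hexp f hfT)
        rwa [Nat.sub_add_cancel hn] at this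
      have hof' : orderOf f' = 2 ^ n := by
        rw [hf', ← MulAut.conj_apply, ← MulEquiv.coe_toMonoidHom,
          orderOf_injective _ (MulAut.conj y).injective, hof]
      -- `⟨f⟩` and `⟨f'⟩` meet trivially
      have hinv2 : ∀ (a : G) (i : ℤ), orderOf a = 2 ^ n → (a ^ i) * (a ^ i) = 1 →
          a ^ i = 1 ∨ a ^ i = a ^ (2 ^ (n - 1)) := by
        intro a i ha hi
        rw [← zpow_add, ← orderOf_dvd_iff_zpow_eq_one, ha] at hi
        obtain ⟨j, rfl⟩ : (2 : ℤ) ^ (n - 1) ∣ i := by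
          refine (mul_dvd_mul_iff_left (two_ne_zero (α := ℤ))).1 ?_
          rw [← pow_succ', Nat.sub_add_cancel hn, two_mul]
          exact_mod_cast hi
        rcases Int.even_or_odd' j with ⟨s, rfl | rfl⟩
        · refine Or.inl (orderOf_dvd_iff_zpow_eq_one.1 ?_)
          rw [ha]; push_cast
          rw [← mul_assoc, ← pow_succ, Nat.sub_add_cancel hn]
          exact dvd_mul_right _ _
        · refine Or.inr ?_
          rw [← zpow_natCast a (2 ^ (n - 1)), mul_add, zpow_add, mul_one]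
          have h0 : a ^ ((2 : ℤ) ^ (n - 1) * (2 * s)) = 1 := by
            refine orderOf_dvd_iff_zpow_eq_one.1 ?_
            rw [ha]; push_cast
            rw [← mul_assoc, ← pow_succ, Nat.sub_add_cancel hn]
            exact dvd_mul_right _ _
          rw [h0, one_mul]; push_cast; rfl
      have hdisj : Subgroup.zpowers f ⊓ Subgroup.zpowers f' = ⊥ := by
        rw [eq_bot_iff]
        intro q hq
        rw [Subgroup.mem_bot]
        by_contra hq1
        have hqT : q ∈ T := (Subgroup.zpowers_le.2 hfT) hq.1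
        have hex : ∃ i, q ^ (2 ^ i) = 1 := ⟨n, hexp q hqT⟩
        have h0 : Nat.find hex ≠ 0 := fun h0 => hq1 (by
          have := Nat.find_spec hex; rwa [h0, pow_zero, pow_one] at this)
        set q' := q ^ (2 ^ (Nat.find hex - 1)) with hq'
        have hq'1 : q' ≠ 1 := Nat.find_min hex (by omega)
        have hq'2 : q' * q' = 1 := by
          rw [hq', ← pow_add, ← two_mul, ← pow_succ', Nat.sub_add_cancel (by omega)]
          exact Nat.find_spec hex
        obtain ⟨i, hi⟩ := Subgroup.mem_zpowers_iff.1 (pow_mem hq.1 (2 ^ (Nat.find hex - 1)))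
        obtain ⟨j, hj⟩ := Subgroup.mem_zpowers_iff.1 (pow_mem hq.2 (2 ^ (Nat.find hex - 1)))
        rw [← hq'] at hi hj
        have h3 := (hinv2 f i hof (by rw [hi]; exact hq'2)).resolve_left (by rw [hi]; exact hq'1)
        have h4 := (hinv2 f' j hof' (by rw [hj]; exact hq'2)).resolve_left (by rw [hj]; exact hq'1)
        rw [hi, hf] at h3
        rw [hj, hf'u, h3] at h4
        exact hz1 (mul_left_cancel ((mul_one u).trans h4)).symm
      have hgen : ∀ t ∈ T, ∃ i j : ℕ, f ^ i * f' ^ j = t := by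
        let F : Fin (2 ^ n) × Fin (2 ^ n) → T := fun p =>
          ⟨f ^ (p.1 : ℕ) * f' ^ (p.2 : ℕ), mul_mem (pow_mem hfT _) (pow_mem hf'T _)⟩
        have hFi : Function.Injective F := by
          intro p p' hpp
          have hpp' : f ^ (p.1 : ℕ) * f' ^ (p.2 : ℕ) = f ^ (p'.1 : ℕ) * f' ^ (p'.2 : ℕ) :=
            congrArg Subtype.val hpp
          have h5 : (f ^ (p'.1 : ℕ))⁻¹ * f ^ (p.1 : ℕ) = f' ^ (p'.2 : ℕ) * (f' ^ (p.2 : ℕ))⁻¹ := by
            rw [eq_mul_inv_iff_mul_eq, mul_assoc, hpp', inv_mul_cancel_left]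
          have h6 : (f ^ (p'.1 : ℕ))⁻¹ * f ^ (p.1 : ℕ) = 1 := by
            rw [← Subgroup.mem_bot, ← hdisj]
            refine Subgroup.mem_inf.2 ⟨mul_mem (inv_mem (Subgroup.npow_mem_zpowers f _))
              (Subgroup.npow_mem_zpowers f _), ?_⟩
            rw [h5]
            exact mul_mem (Subgroup.npow_mem_zpowers f' _) (inv_mem (Subgroup.npow_mem_zpowers f' _))
          have h7 : f' ^ (p'.2 : ℕ) = f' ^ (p.2 : ℕ) := mul_inv_eq_one.1 (h5.symm.trans h6)
          have h8 : f ^ (p'.1 : ℕ) = f ^ (p.1 : ℕ) := inv_mul_eq_one.1 h6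
          exact Prod.ext
            (Fin.ext (pow_injOn_Iio_orderOf (x := f) (by simp [hof]) (by simp [hof]) h8.symm))
            (Fin.ext (pow_injOn_Iio_orderOf (x := f') (by simp [hof']) (by simp [hof']) h7.symm))
        have hFs : Function.Surjective F := (hFi.bijective_of_nat_card_le (by
          rw [Nat.card_prod, Nat.card_fin, hcardT, ← pow_add, two_mul])).2
        intro t ht
        obtain ⟨p, hp⟩ := hFs ⟨t, ht⟩
        exact ⟨p.1, p.2, congrArg Subtype.val hp⟩
      have hyy : y * y ∈ T := (memT _).2 ⟨mul_mem hy hy, hT y hy y hy hyU hyU⟩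
      obtain ⟨i, j, hij⟩ := hgen _ hyy
      have hswap : y * f' * y⁻¹ = f := by
        rw [hf', show y * (y * f * y⁻¹) * y⁻¹ = (y * y) * f * (y * y)⁻¹ by group,
          (hTc _ hyy _ hfT).eq, mul_inv_cancel_right]
      have hji : f' ^ j = f' ^ i := by
        have h9 : f' ^ i * f ^ j = f ^ i * f' ^ j := by
          calc f' ^ i * f ^ j = y * (f ^ i * f' ^ j) * y⁻¹ := by
                rw [← conj_mul, ← conj_pow, ← hf', ← conj_pow, hswap]
            _ = f ^ i * f' ^ j := by rw [hij]; group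
        have h10 : (f ^ i)⁻¹ * f ^ j = (f' ^ i)⁻¹ * f' ^ j := by
          rw [eq_inv_mul_iff_mul_eq, ← mul_assoc,
            ((hTc _ (inv_mem (pow_mem hfT i)) _ (pow_mem hf'T i)).symm).eq, mul_assoc, h9,
            inv_mul_cancel_left]
        have h11 : (f' ^ i)⁻¹ * f' ^ j = 1 := by
          rw [← Subgroup.mem_bot, ← hdisj]
          refine Subgroup.mem_inf.2 ⟨?_, mul_mem (inv_mem (Subgroup.npow_mem_zpowers f' _))
            (Subgroup.npow_mem_zpowers f' _)⟩
          rw [← h10]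
          exact mul_mem (inv_mem (Subgroup.npow_mem_zpowers f _)) (Subgroup.npow_mem_zpowers f _)
        exact (inv_mul_eq_one.1 h11).symm
      rw [hji] at hij
      set x := (f ^ i)⁻¹ * y with hx
      have hxx : x * x = 1 := by
        have h12 : y * (f ^ i)⁻¹ * y⁻¹ = (f' ^ i)⁻¹ := by
          rw [hf', conj_pow]; group
        calc x * x = (f ^ i)⁻¹ * (y * (f ^ i)⁻¹ * y⁻¹) * (y * y) := by rw [hx]; group
          _ = (f' ^ i * f ^ i)⁻¹ * (f ^ i * f' ^ i) := by rw [h12, ← hij]; group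
          _ = 1 := by
            rw [(hTc _ (pow_mem hf'T i) _ (pow_mem hfT i)).eq, inv_mul_cancel]
      have hx1 : x ≠ 1 := fun e => hyT (by
        have e2 : (f ^ i)⁻¹ * y = 1 := e
        rw [← inv_mul_eq_one.1 e2]; exact pow_mem hfT i)
      refine CfsgLib.FusionTwo.isWreathed_sylow S hn2 ?_ hof (hTc _ hfT _ hf'T).eq hdisj
        (orderOf_eq_prime (by rw [pow_two]; exact hxx) hx1) ?_
      · rw [hcardS, hcardT]; ring
      · calc x * f * x⁻¹ = (f ^ i)⁻¹ * f' * f ^ i := by rw [hx, hf']; group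
          _ = f' := by
            rw [(hTc _ (inv_mem (pow_mem hfT i)) _ hf'T).eq, inv_mul_cancel_right]
  · exfalso
    obtain ⟨h64, hinv⟩ := h
    have hyW : y * v * y⁻¹ ≠ v := by
      rw [hyv]; exact fun e => hz1 (mul_left_cancel (e.trans (mul_one v).symm))
    refine no_swap h64 hinv (restrictAut T (MulAut.conj y) fun a ha => by simpa using hyNT a ha)
      (fun a => ?_) (z := ⟨z, hUT hz⟩) (w₀ := ⟨v, hUT hv⟩) hz (fun e => hz1 (congrArg Subtype.val e))
      (Subtype.ext (by simpa using hyz)) hv (fun e => hyW (by simpa using congrArg Subtype.val e))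
    have hyy : y * y ∈ T := (memT _).2 ⟨mul_mem hy hy, hT y hy y hy hyU hyU⟩
    have h1 : (a⁻¹ * ((⟨y * y, hyy⟩ : T) * a * (⟨y * y, hyy⟩ : T)⁻¹)) ∈ W := by
      have := h64.comm_mem a⁻¹ ⟨y * y, hyy⟩
      simpa [commutatorElement_def, mul_assoc] using this
    convert h1 using 2
    refine Subtype.ext ?_
    simp only [restrictAut_coe, MulAut.conj_apply, Subgroup.coe_mul, Subgroup.coe_inv]
    group

include h2 hiso in
/-- A normal four-group which is not central. -/
theorem shape_noncentral {U : Subgroup G} (hUS : U ≤ S) (hU4 : Nat.card U = 4)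
    (hU2 : ∀ a ∈ U, a * a = 1) (hUn : (S : Subgroup G) ≤ Subgroup.normalizer (U : Set G))
    {y : G} (hy : y ∈ S) (hyU : ¬ ∀ a ∈ U, Commute y a) :
    SylowShape (S : Subgroup G) := by
  classical
  haveI : Fact (Nat.Prime 2) := ⟨Nat.prime_two⟩
  obtain ⟨z, hz, hz1, hzS⟩ : ∃ z ∈ U, z ≠ 1 ∧ ∀ s ∈ (S : Subgroup G), Commute s z := by
    by_contra hcon
    push Not at hcon
    obtain ⟨k, hk, hkall⟩ := exists_moving_all hU4 hU2 _ hUn (fun a ha ha1 => by
      obtain ⟨s, hs, hsa⟩ := hcon a ha ha1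
      exact ⟨s, hs, fun e => hsa (mul_inv_eq_iff_eq_mul.1 e)⟩)
    obtain ⟨m, hm⟩ := S.isPGroup' ⟨k, hk⟩
    have hm' : k ^ (2 ^ m) = 1 := congrArg Subtype.val hm
    obtain ⟨t, ht⟩ := exists_pow_eq_self_of_coprime (x := k) (n := 3)
      (Nat.Coprime.coprime_dvd_right (orderOf_dvd_of_pow_eq_one hm') (Nat.Coprime.pow_right m (by norm_num)))
    obtain ⟨a, ha, ha1⟩ : ∃ a ∈ U, a ≠ 1 := by
      obtain ⟨a, ha⟩ := (Subgroup.bot_or_exists_ne_one U).resolve_left
        (fun e => by rw [e, Subgroup.card_bot] at hU4; omega)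
      exact ⟨a, ha⟩
    refine ha1 (hkall a ha (mul_inv_eq_of_eq_mul ?_))
    have h3 : Commute (k ^ 3) a := by
      refine mul_inv_eq_iff_eq_mul.1 ?_
      calc k ^ 3 * a * (k ^ 3)⁻¹ = k * (k * (k * a * k⁻¹) * k⁻¹) * k⁻¹ := by
            rw [pow_succ, pow_two]; group
        _ = a := (three_cycle hU4 hU2 (hUn hk) hkall ha).2
    rw [← ht]
    exact (h3.pow_left t).eq
  obtain ⟨u, hu, hu1, huz⟩ : ∃ u ∈ U, u ≠ 1 ∧ u ≠ z := by
    by_contra hcon
    push Not at hcon
    refine hyU fun a ha => ?_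
    rcases eq_or_ne a 1 with rfl | ha1
    · exact Commute.one_right y
    · rw [hcon a ha ha1]; exact hzS y hy
  have hmove : ∀ s ∈ (S : Subgroup G), (¬ ∀ a ∈ U, Commute s a) → s * u * s⁻¹ = u * z := by
    intro s hs hsU
    refine conj_eq_mul hU4 hU2 (hUn hs) hu hz hz1 (fun e => ?_) (mul_inv_eq_of_eq_mul (hzS s hs).eq)
    exact hsU (commute_of_two hU4 hU2 hz hu hz1 hu1 (Ne.symm huz) (hzS s hs)
      (mul_inv_eq_iff_eq_mul.1 e))
  have hT : ∀ s ∈ (S : Subgroup G), ∀ s' ∈ (S : Subgroup G), (¬ ∀ a ∈ U, Commute s a) →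
      (¬ ∀ a ∈ U, Commute s' a) → ∀ a ∈ U, Commute (s * s') a := by
    intro s hs s' hs' h h'
    refine commute_of_two hU4 hU2 hz hu hz1 hu1 (Ne.symm huz) (hzS _ (mul_mem hs hs')) ?_
    refine mul_inv_eq_iff_eq_mul.1 ?_
    calc s * s' * u * (s * s')⁻¹ = s * (s' * u * s'⁻¹) * s⁻¹ := by group
      _ = s * u * s⁻¹ * (s * z * s⁻¹) := by rw [hmove s' hs' h', conj_mul]
      _ = u := by
        rw [hmove s hs h, mul_inv_eq_of_eq_mul (hzS s hs).eq, mul_assoc, hU2 z hz, mul_one]
  by_cases hfus : ∃ g, g * z * g⁻¹ ∈ U ∧ g * z * g⁻¹ ≠ z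
  · obtain ⟨g, hg, hgz⟩ := hfus
    exact shape_fused h2 S hUS hU4 hU2 hUn hy hyU hz hz1 hzS hg hgz hT
  push Not at hfus
  have hzo : orderOf z = 2 := orderOf_eq_prime (by rw [pow_two]; exact hU2 z hz) hz1
  obtain ⟨g, hgc, hgz⟩ := not_forall.1 (fun hall => hiso z ⟨hzo, hall⟩) |>.imp
    fun g hg => Classical.not_imp.1 hg
  have hSz : (S : Subgroup G) ≤ Subgroup.centralizer {z} := fun s hs =>
    Subgroup.mem_centralizer_singleton_iff.2 (hzS s hs).eq
  obtain ⟨c, hcz, hc⟩ := exists_conj_mem_sylow hSz (Q := Subgroup.zpowers (g * z * g⁻¹))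
    (IsPGroup.of_card (n := 1) (by
      rw [Nat.card_zpowers, ← MulAut.conj_apply,
        ← MulEquiv.coe_toMonoidHom, orderOf_injective _ (MulAut.conj g).injective, hzo, pow_one]))
    (by rw [Subgroup.zpowers_le]; exact Subgroup.mem_centralizer_singleton_iff.2 hgc.eq.symm)
  set x := c * (g * z * g⁻¹) * c⁻¹ with hxdef
  have hxS : x ∈ (S : Subgroup G) := hc _ (Subgroup.mem_zpowers _)
  have hxconj : c * g * z * (c * g)⁻¹ = x := by rw [hxdef]; group
  have hxz : x ≠ z := by
    intro e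
    apply hgz
    have hfix : c * z * c⁻¹ = z :=
      mul_inv_eq_of_eq_mul (Subgroup.mem_centralizer_singleton_iff.1 hcz)
    exact mul_left_cancel (mul_right_cancel (e.trans hfix.symm))
  have hxU : x ∉ U := fun e => hxz (by
    rw [← hxconj]; exact hfus (c * g) (hxconj.symm ▸ e))
  have hx2 : x * x = 1 := by
    rw [← hxconj, show c * g * z * (c * g)⁻¹ * (c * g * z * (c * g)⁻¹) = c * g * (z * z) * (c * g)⁻¹
      by group, hU2 z hz]
    group
  have hxT : ¬ ∀ a ∈ U, Commute x a := fun e => hxU (mem_of_commute h2 hU4 hU2 hx2 e)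
  have hxx : Commute x z := hzS x hxS
  -- the only involutions of the centraliser of `U` commuting with `x`
  have honly : ∀ w ∈ (S : Subgroup G), (∀ a ∈ U, Commute w a) → Commute w x → w * w = 1 →
      w = 1 ∨ w = z := by
    intro w _ hwU hwx hw2
    have hw : w ∈ U := mem_of_commute h2 hU4 hU2 hw2 hwU
    by_contra hcon
    push Not at hcon
    exact hxT (commute_of_two hU4 hU2 hz hw hz1 hcon.1 (Ne.symm hcon.2) hxx hwx.symm)
  by_cases hE : ∀ s ∈ (S : Subgroup G), Commute s x → s = 1 ∨ s = x ∨ s = z ∨ s = x * z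
  · -- a self-centralising four-group
    let E : Subgroup (S : Subgroup G) := Subgroup.centralizer {⟨x, hxS⟩}
    have memE : ∀ s : (S : Subgroup G), s ∈ E ↔ Commute (s : G) x := fun s => by
      rw [Subgroup.mem_centralizer_singleton_iff]
      exact ⟨fun e => congrArg Subtype.val e, fun e => Subtype.ext e⟩
    have hzSS : z ∈ (S : Subgroup G) := hUS hz
    have hEcases : ∀ s ∈ E, s = 1 ∨ s = ⟨x, hxS⟩ ∨ s = ⟨z, hzSS⟩ ∨
        s = ⟨x, hxS⟩ * ⟨z, hzSS⟩ := fun s hs => by
      rcases hE s s.2 ((memE s).1 hs) with e | e | e | e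
      · exact Or.inl (Subtype.ext e)
      · exact Or.inr (Or.inl (Subtype.ext e))
      · exact Or.inr (Or.inr (Or.inl (Subtype.ext e)))
      · exact Or.inr (Or.inr (Or.inr (Subtype.ext e)))
    have hEc : ∀ a ∈ E, ∀ b ∈ E, Commute a b := by
      intro a ha b hb
      rcases hEcases b hb with e | e | e | e <;> rw [e]
      · exact Commute.one_right a
      · exact Subtype.ext ((memE a).1 ha).eq
      · exact Subtype.ext (hzS a a.2).eq
      · exact (show Commute a ⟨x, hxS⟩ from Subtype.ext ((memE a).1 ha).eq).mul_right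
          (show Commute a ⟨z, hzSS⟩ from Subtype.ext (hzS a a.2).eq)
    have hx1 : x ≠ 1 := fun e => hxU (e ▸ one_mem U)
    have hE4 : Nat.card E = 2 ^ 2 := by
      haveI : Fintype E := Fintype.ofFinite E
      have hxE : (⟨x, hxS⟩ : (S : Subgroup G)) ∈ E := (memE _).2 (Commute.refl x)
      have hzE : (⟨z, hzSS⟩ : (S : Subgroup G)) ∈ E := (memE _).2 hxx.symm
      have he : (Finset.univ : Finset E) = {1, ⟨_, hxE⟩, ⟨_, hzE⟩, ⟨_, mul_mem hxE hzE⟩} := by
        ext a
        simp only [Finset.mem_univ, Finset.mem_insert, Finset.mem_singleton, true_iff]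
        rcases hEcases a a.2 with e | e | e | e
        · exact Or.inl (Subtype.ext e)
        · exact Or.inr (Or.inl (Subtype.ext e))
        · exact Or.inr (Or.inr (Or.inl (Subtype.ext e)))
        · exact Or.inr (Or.inr (Or.inr (Subtype.ext e)))
      rw [Nat.card_eq_fintype_card, ← Finset.card_univ, he]
      have h1 : x * z ≠ 1 := fun e => hxz (mul_right_cancel (e.trans (hU2 z hz).symm))
      have h2' : x * z ≠ x := fun e => hz1 (mul_left_cancel (e.trans (mul_one x).symm))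
      have h3 : x * z ≠ z := fun e => hx1 (mul_right_cancel (e.trans (one_mul z).symm))
      simp [Finset.card_insert_of_notMem, Subtype.ext_iff, Ne.symm hx1, Ne.symm hz1, Ne.symm h1,
        hxz, Ne.symm h2', Ne.symm h3]
    have hEC : Subgroup.centralizer (E : Set (S : Subgroup G)) = E := by
      refine le_antisymm (fun s hs => ?_) (fun a ha => Subgroup.mem_centralizer_iff.2 fun b hb =>
        (hEc b hb a ha).eq)
      rw [memE]
      exact congrArg Subtype.val (Subgroup.mem_centralizer_iff.1 hs ⟨x, hxS⟩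
        ((memE _).2 (Commute.refl x))).symm
    obtain ⟨m, hm⟩ := IsPGroup.iff_card.1 S.isPGroup'
    have hcl := Cfsg.Agent.S0112.result m hm E hE4 hEC
    have hm3 : 3 ≤ m := by
      have hne : U.subgroupOf (S : Subgroup G) ≠ ⊤ := fun e => by
        rw [Subgroup.subgroupOf_eq_top] at e
        exact hxU (e hxS)
      have hd := Subgroup.card_subgroup_dvd_card (U.subgroupOf (S : Subgroup G))
      have hlt : Nat.card (U.subgroupOf (S : Subgroup G)) < Nat.card (S : Subgroup G) := by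
        refine lt_of_le_of_ne (Nat.le_of_dvd Nat.card_pos hd) fun e => hne ?_
        exact Subgroup.eq_top_of_card_eq _ e
      rw [Nat.card_congr (Subgroup.subgroupOfEquivOfLe hUS).toEquiv, hU4, hm,
        show (4 : ℕ) = 2 ^ 2 from rfl] at hlt
      exact (Nat.pow_lt_pow_iff_right (by norm_num)).1 hlt
    exact shape_of_maxClass hUS hU4 hU2
      (CfsgLib.TwoGroup.isMaxClassType_of_nilpotencyClass hm hm3 hcl)
  · exfalso
    push Not at hE
    obtain ⟨s, hs, hsx, hs1, hsx', hsz, hsxz⟩ := hE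
    obtain ⟨w, hwS, hwU, hwx, hw1, hwz⟩ : ∃ w ∈ (S : Subgroup G),
        (∀ a ∈ U, Commute w a) ∧ Commute w x ∧ w ≠ 1 ∧ w ≠ z := by
      by_cases hsU : ∀ a ∈ U, Commute s a
      · exact ⟨s, hs, hsU, hsx, hs1, hsz⟩
      · refine ⟨x * s, mul_mem hxS hs, hT x hxS s hs hxT hsU, (Commute.refl x).mul_left hsx,
          fun e => hsx' ?_, fun e => hsxz ?_⟩
        · exact (inv_eq_of_mul_eq_one_right e).symm.trans (inv_eq_of_mul_eq_one_right hx2)
        · rw [← e, ← mul_assoc, hx2, one_mul]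
    obtain ⟨m, hm⟩ := S.isPGroup' ⟨w, hwS⟩
    have hex : ∃ i, w ^ (2 ^ i) = 1 := ⟨m, congrArg Subtype.val hm⟩
    have h0 : 2 ≤ Nat.find hex := by
      by_contra hlt
      push Not at hlt
      have := Nat.find_spec hex
      rcases (show Nat.find hex = 0 ∨ Nat.find hex = 1 by omega) with e | e <;> rw [e] at this
      · exact hw1 (by simpa using this)
      · rcases honly w hwS hwU hwx (by rw [← pow_two]; simpa using this) with e' | e'
        · exact hw1 e'
        · exact hwz e'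
    set q := w ^ (2 ^ (Nat.find hex - 2)) with hq
    have hqq : q * q = w ^ (2 ^ (Nat.find hex - 1)) := by
      rw [hq, ← pow_add, ← two_mul, ← pow_succ', show Nat.find hex - 2 + 1 = Nat.find hex - 1 by omega]
    have hqz : q * q = z := by
      refine (honly (q * q) ?_ ?_ ?_ ?_).resolve_left ?_
      · rw [hqq]; exact pow_mem hwS _
      · intro a ha; rw [hqq]; exact (hwU a ha).pow_left _
      · rw [hqq]; exact hwx.pow_left _
      · rw [hqq, ← pow_add, ← two_mul, ← pow_succ',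
          show Nat.find hex - 1 + 1 = Nat.find hex by omega]
        exact Nat.find_spec hex
      · rw [hqq]; exact Nat.find_min hex (by omega)
    set g' := (c * g)⁻¹ with hg'
    have hg'x : g' * x * g'⁻¹ = z := by rw [← hxconj, hg']; group
    have hq' : Commute (g' * q * g'⁻¹) z := by
      rw [← hg'x]
      exact (hwx.pow_left _).map (MulAut.conj g').toMonoidHom
    obtain ⟨m', hm'⟩ : ∃ i, orderOf (g' * q * g'⁻¹) = 2 ^ i := by
      obtain ⟨i, -, hi⟩ := (Nat.dvd_prime_pow Nat.prime_two).1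
        (orderOf_dvd_of_pow_eq_one (congrArg Subtype.val hm : w ^ (2 ^ m) = 1))
      have hd : orderOf q ∣ 2 ^ i := hi ▸ orderOf_pow_dvd _
      obtain ⟨i', -, hi'⟩ := (Nat.dvd_prime_pow Nat.prime_two).1 hd
      exact ⟨i', by rw [← MulAut.conj_apply, ← MulEquiv.coe_toMonoidHom,
        orderOf_injective _ (MulAut.conj g').injective, hi']⟩
    obtain ⟨c', hc'z, hc'⟩ := exists_conj_mem_sylow hSz (Q := Subgroup.zpowers (g' * q * g'⁻¹))
      (IsPGroup.of_card (n := m') (by rw [Nat.card_zpowers, hm']))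
      (by rw [Subgroup.zpowers_le]; exact Subgroup.mem_centralizer_singleton_iff.2 hq'.eq)
    set h := c' * g' with hh
    have hhx : h * x * h⁻¹ = z := by
      rw [hh, show c' * g' * x * (c' * g')⁻¹ = c' * (g' * x * g'⁻¹) * c'⁻¹ by group, hg'x]
      exact mul_inv_eq_of_eq_mul (Subgroup.mem_centralizer_singleton_iff.1 hc'z)
    have hhq : h * q * h⁻¹ ∈ (S : Subgroup G) := by
      have := hc' _ (Subgroup.mem_zpowers _)
      rw [hh]; convert this using 1; group
    have hhz : h * z * h⁻¹ ∈ U := by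
      refine mem_of_commute h2 hU4 hU2 ?_ ?_
      · rw [show h * z * h⁻¹ * (h * z * h⁻¹) = h * (z * z) * h⁻¹ by group, hU2 z hz]; group
      · have hsq : h * z * h⁻¹ = h * q * h⁻¹ * (h * q * h⁻¹) := by rw [← hqz]; group
        rw [hsq]
        by_cases hc2 : ∀ a ∈ U, Commute (h * q * h⁻¹) a
        · exact fun a ha => (hc2 a ha).mul_left (hc2 a ha)
        · exact hT _ hhq _ hhq hc2 hc2
    have := hfus h hhz
    exact hxz (mul_left_cancel (mul_right_cancel (hhx.trans this.symm)))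

include h2 hiso in
/-- Sylow `2`-subgroups in `2`-rank two without isolated involutions. -/
theorem sylow_shape (h1 : ¬ Cfsg.PRankLE 2 1 G) : SylowShape (S : Subgroup G) := by
  obtain ⟨⟨U₀, hU₀S, hU₀4, hU₀2⟩, hm | ⟨U, hUS, hU4, hU2, hUn⟩⟩ := maxClass_or_normal_four h2 S h1
  · exact shape_of_maxClass hU₀S hU₀4 hU₀2 hm
  by_cases hc : ∀ s ∈ (S : Subgroup G), ∀ a ∈ U, Commute s a
  · exact shape_central h2 hiso S hUS hU4 hU2 hc
  · obtain ⟨y, hy, hyU⟩ : ∃ y ∈ (S : Subgroup G), ¬ ∀ a ∈ U, Commute y a := by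
      by_contra hcon
      push Not at hcon
      exact hc hcon
    exact shape_noncentral h2 hiso S hUS hU4 hU2 hUn hy hyU

end CfsgLib.TwoRankTwo23
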